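import Cfsg.Agent.H775.EPF.Defs

/-!
# S5745, row (2E6(2), Fi22): the second half of the facts on `H` (helper775)
-/

set_option autoImplicit false

namespace Cfsg.Agent.H775.EPF

variable {G : Type*} [Group G]

/-- More facts on `N = Fi22`: `C_N(a) = 2.U6(2)` for `a ∈ D`. -/
structure HSide2 (H N : Subgroup G) (D : Set G) : Prop where
  norm : ∀ h ∈ H, ∀ n ∈ N, h * n * h⁻¹ ∈ N
  ne : D.Nonempty
  cl : ∀ a ∈ D, ∀ b ∈ D, ∃ g : G, g * a * g⁻¹ = b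
  /-- `2 |U6(2)|` -/
  cardC : ∀ a ∈ D, Nat.card (N ⊓ Subgroup.centralizer {a} : Subgroup G) = 18393661440
  /-- the proper normal subgroups of `C_N(a) = 2.U6(2)` -/
  quot : ∀ a ∈ D, ∀ J ≤ N ⊓ Subgroup.centralizer {a},
    (∀ c ∈ N ⊓ Subgroup.centralizer {a}, ∀ j ∈ J, c * j * c⁻¹ ∈ J) →
      (∀ j ∈ J, j = 1 ∨ j = a) ∨ J = N ⊓ Subgroup.centralizer {a}

end Cfsg.Agent.H775.EPF
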