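import Mathlib

/-!
# S5745, row (2E6(2), Fi22): the interface (helper775; paper proof of helper918, tools/plans/S5745_Fi22.md)

* `HSide H N D` : facts on `H` (`N ≤ H`, `D` the 3-transpositions of `N = Fi22`);
* `GSide H N Q D d u x5 x7` : facts on `G` (`d ∈ D` a long root involution, `Q = O_2(C_G(d))`, `u ∈ Q`);
* `H775/EPF/Fi22Abs.lean`: `false_of : EP H → HSide H N D → GSide H N Q D d u x5 x7 → False`.
-/

set_option autoImplicit false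

namespace Cfsg.Agent.H775.EPF

variable {G : Type*} [Group G]

/-- The facts on `H`: `N = Fi22 ≤ H ≤ Aut(Fi22)`, `D` = the class of 3-transpositions. -/
structure HSide (H N : Subgroup G) (D : Set G) : Prop where
  le : N ≤ H
  /-- elements of order 3 of `H` are in `N` (`|H : N| ≤ 2`) -/
  cube : ∀ x ∈ H, x ^ 3 = 1 → x ∈ N
  sub : ∀ a ∈ D, a ∈ N
  conj : ∀ h ∈ H, ∀ a ∈ D, h * a * h⁻¹ ∈ D
  inv : ∀ a ∈ D, orderOf a = 2
  tri : ∀ a ∈ D, ∀ b ∈ D, a * b = b * a ∨ (a * b) ^ 3 = 1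
  /-- `|D| = 3510` -/
  card : D.ncard < 3 ^ 12
  comm : ∀ a ∈ D, ∃ b ∈ D, b ≠ a ∧ b * a = a * b
  /-- `C_N(x) = 7 × S3` for `x` of order 7 -/
  seven : ∀ a ∈ D, ∀ x ∈ N, orderOf x = 7 → x * a = a * x → ∃ b ∈ D, a * b ≠ b * a ∧ x * b = b * x ∧
    ∀ y ∈ N, orderOf y = 2 → x * y = y * x → y = a ∨ y = b ∨ y = a * b * a
  /-- the elements of `D` commuting with `x` of order 5 are the ten transpositions of an `S5` -/
  five : ∀ x ∈ N, orderOf x = 5 → ∀ s ∈ D, ∀ t ∈ D, ∀ w ∈ D, x * s = s * x → x * t = t * x → x * w = w * x →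
    s * t ≠ t * s → w ≠ s → w ≠ t → w ≠ s * t * s → w * s = s * w ∨ w * t = t * w ∨ w * (s * t * s) = s * t * s * w

/-- The facts on `G`: `d` a long root involution in `D`, `Q = O_2(C_G(d))` extraspecial, `u ∈ Q` not fixed modulo `⟨d⟩` by
any `e ∈ D` commuting with `d`, and centralised by elements of order 5 and 7 of `C_N(d)`. -/
structure GSide (H N Q : Subgroup G) (D : Set G) (d u x5 x7 : G) : Prop where
  dD : d ∈ D
  dQ : d ∈ Q
  uQ : u ∈ Q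
  uH : u ∉ H
  /-- `d` is central in `Q` -/
  cen : ∀ x ∈ Q, x * d = d * x
  /-- `Q ∩ H = ⟨d⟩` -/
  inf : ∀ x ∈ Q, x ∈ H → x = 1 ∨ x = d
  /-- `C_H(d)` normalises `Q` -/
  nrm : ∀ e ∈ D, e * d = d * e → ∀ x ∈ Q, e * x * e⁻¹ ∈ Q
  /-- no transvection fixes `u` modulo `⟨d⟩` -/
  no : ∀ e ∈ D, e * d = d * e → e ≠ d → u⁻¹ * e * u ≠ e ∧ u⁻¹ * e * u ≠ e * d
  m5 : x5 ∈ N
  o5 : orderOf x5 = 5
  d5 : x5 * d = d * x5
  u5 : x5 * u = u * x5
  m7 : x7 ∈ N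
  o7 : orderOf x7 = 7
  d7 : x7 * d = d * x7
  u7 : x7 * u = u * x7
  /-- `C_Q` of an opposite root involution is trivial -/
  opp : ∀ e ∈ D, e * d ≠ d * e → ∀ v ∈ Q, v * e = e * v → v = 1

end Cfsg.Agent.H775.EPF
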