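import Cfsg.Agent.H775.EPF.Defs
import Cfsg.Agent.H284.EP.Basic
import Cfsg.Agent.S0215

/-!
# S5745, row (2E6(2), Fi22): the abstract steps (5)-(9) (helper775; paper proof of helper918, tools/plans/S5745_Fi22.md)

* `HSide H N D` : facts on `H` (`N ≤ H`, `D` the 3-transpositions of `N = Fi22`);
* `GSide N H Q D d u x5 x7` : facts on `G` (`d ∈ D` a long root involution, `Q = O_2(C_G(d))`, `u ∈ Q`);
* `false_of` : `EP H → HSide H N D → GSide H N Q D d u x5 x7 → False`.
-/

set_option autoImplicit false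

namespace Cfsg.Agent.H775.EPF

open Subgroup Cfsg.Agent.H284

variable {G : Type*} [Group G]

/-! ### an automorphism of order 2 of a group of odd order -/

section coprime

variable {K : Type*} [Group K] [Finite K]

/-- the fixed points of an automorphism -/
def fixG (φ : MulAut K) : Subgroup K where
  carrier := {x | φ x = x}
  one_mem' := map_one φ
  mul_mem' := by
    intro a b ha hb
    show φ (a * b) = a * b
    rw [map_mul, show φ a = a from ha, show φ b = b from hb]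
  inv_mem' := by
    intro a ha
    show φ a⁻¹ = a⁻¹
    rw [map_inv, show φ a = a from ha]

omit [Finite K] in
theorem mem_fixG {φ : MulAut K} {x : K} : x ∈ fixG φ ↔ φ x = x := Iff.rfl

/-- If every element inverted by the involutory automorphism `φ` has order 1 or 3, then `|K : C_K(φ)|` is a power of 3. -/
theorem index_fixG (φ : MulAut K) (h2 : φ * φ = 1) (hodd : Odd (Nat.card K)) (h3 : ∀ x, φ x = x⁻¹ → x ^ 3 = 1) :
    ∃ a : ℕ, (fixG φ).index = 3 ^ a := by
  classical
  refine ⟨_, Nat.eq_prime_pow_of_unique_prime_dvd Subgroup.index_ne_zero_of_finite ?_⟩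
  intro r hr hrd
  by_contra hr3
  have hrf : Fact r.Prime := ⟨hr⟩
  -- the group of order 2 acting on the Sylow subgroups
  have hP : IsPGroup 2 (Subgroup.zpowers φ) := by
    rw [IsPGroup.iff_card]
    have h4 : orderOf φ ∣ 2 := orderOf_dvd_of_pow_eq_one (by rw [pow_two, h2])
    rcases (Nat.dvd_prime Nat.prime_two).1 h4 with h5 | h5
    · exact ⟨0, by rw [Nat.card_zpowers, h5, pow_zero]⟩
    · exact ⟨1, by rw [Nat.card_zpowers, h5, pow_one]⟩
  have h2f : Fact (Nat.Prime 2) := ⟨Nat.prime_two⟩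
  have hns : ¬ 2 ∣ Nat.card (Sylow r K) := by
    intro h
    obtain ⟨P⟩ : Nonempty (Sylow r K) := inferInstance
    have h5 := (h.trans (P.card_dvd_index)).trans (P : Subgroup K).index_dvd_card
    exact (Nat.not_even_iff_odd.2 hodd) (even_iff_two_dvd.2 h5)
  obtain ⟨P, hPf⟩ := hP.nonempty_fixed_point_of_prime_not_dvd_card (Sylow r K) hns
  have hfix : ∀ x ∈ P, φ x ∈ P := by
    intro x hx
    have h5 : (⟨φ, mem_zpowers φ⟩ : Subgroup.zpowers φ) • P = P := hPf ⟨φ, mem_zpowers φ⟩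
    have h6 : φ x ∈ ((⟨φ, mem_zpowers φ⟩ : Subgroup.zpowers φ) • P : Sylow r K) :=
      Subgroup.smul_mem_pointwise_smul x (⟨φ, mem_zpowers φ⟩ : Subgroup.zpowers φ) (P : Subgroup K) hx
    rwa [h5] at h6
  have hle : (P : Subgroup K) ≤ fixG φ := by
    intro x hx
    rw [mem_fixG]
    have hy : x⁻¹ * φ x ∈ P := mul_mem (inv_mem hx) (hfix x hx)
    have h5 : φ (x⁻¹ * φ x) = (x⁻¹ * φ x)⁻¹ := by
      rw [map_mul, map_inv, mul_inv_rev, inv_inv]
      have h7 : φ (φ x) = x := by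
        have := congrArg (fun ψ : MulAut K => ψ x) h2
        exact this
      rw [h7]
    have h6 := h3 _ h5
    obtain ⟨k, hk⟩ := P.isPGroup' ⟨_, hy⟩
    have hk' : (x⁻¹ * φ x) ^ r ^ k = 1 := congrArg Subtype.val hk
    have h7 : orderOf (x⁻¹ * φ x) ∣ 1 := by
      have hcop : Nat.Coprime 3 (r ^ k) := by
        apply Nat.Coprime.pow_right
        rw [Nat.coprime_primes Nat.prime_three hr]
        exact fun e => hr3 e.symm
      rw [← hcop.gcd_eq_one]
      exact Nat.dvd_gcd (orderOf_dvd_of_pow_eq_one h6) (orderOf_dvd_of_pow_eq_one hk')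
    have h8 : x⁻¹ * φ x = 1 := orderOf_eq_one_iff.1 (Nat.dvd_one.1 h7)
    exact (inv_mul_eq_one.1 h8).symm
  have h9 : (fixG φ).index ∣ (P : Subgroup K).index := Subgroup.index_dvd_of_le hle
  exact P.not_dvd_index (hrd.trans h9)

end coprime

/-! ### counting modulo `p` -/

/-- the conjugates of `d` under `M` -/
def E0 (M : Subgroup G) (d : G) : Set G := {y | ∃ g ∈ M, g * d * g⁻¹ = y}

theorem E0_conj {M : Subgroup G} {d y g : G} (hg : g ∈ M) (hy : y ∈ E0 M d) : g * y * g⁻¹ ∈ E0 M d := by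
  obtain ⟨k, hk, rfl⟩ := hy
  exact ⟨g * k, mul_mem hg hk, by group⟩

/-- An element `x ∈ M` of prime order `p`: the number of its fixed points on `d^M` is congruent to `|d^M|`. -/
theorem E0_modEq [Finite G] {M : Subgroup G} {d x : G} (hx : x ∈ M) {p : ℕ} (hp : p.Prime) (ho : orderOf x = p) :
    (E0 M d).ncard ≡ {e | e ∈ E0 M d ∧ x * e = e * x}.ncard [MOD p] := by
  classical
  have hpf : Fact p.Prime := ⟨hp⟩
  have hfin : Fintype (E0 M d) := Fintype.ofFinite _
  let f : Function.End (E0 M d) := fun e => ⟨x * e.1 * x⁻¹, E0_conj hx e.2⟩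
  have hf : ∀ (k : ℕ) (e : E0 M d), (((f ^ k) e : E0 M d) : G) = x ^ k * e.1 * (x ^ k)⁻¹ := by
    intro k
    induction k with
    | zero =>
      intro e
      rw [pow_zero, pow_zero]
      show (e : G) = 1 * e.1 * 1⁻¹
      group
    | succ k ih =>
      intro e
      rw [pow_succ']
      show x * (((f ^ k) e : E0 M d) : G) * x⁻¹ = _
      rw [ih, pow_succ']
      group
  have hf1 : f ^ p ^ 1 = 1 := by
    funext e
    apply Subtype.ext
    rw [hf, pow_one, ← ho, pow_orderOf_eq_one]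
    show 1 * e.1 * 1⁻¹ = e.1
    group
  have h1 := Equiv.Perm.card_fixedPoints_modEq hf1
  have h2 : Fintype.card (E0 M d) = (E0 M d).ncard := by
    rw [← Nat.card_eq_fintype_card]
    rfl
  have h3 : Fintype.card (Function.fixedPoints f) = {e | e ∈ E0 M d ∧ x * e = e * x}.ncard := by
    rw [← Nat.card_eq_fintype_card]
    have e1 : (fun e : E0 M d => (e : G)) '' Function.fixedPoints f = {e | e ∈ E0 M d ∧ x * e = e * x} := by
      ext y
      constructor
      · rintro ⟨e, he, rfl⟩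
        refine ⟨e.2, ?_⟩
        have h4 : x * e.1 * x⁻¹ = e.1 := congrArg Subtype.val he
        exact mul_inv_eq_iff_eq_mul.1 h4
      · rintro ⟨h4, h5⟩
        refine ⟨⟨y, h4⟩, ?_, rfl⟩
        apply Subtype.ext
        show x * y * x⁻¹ = y
        rw [h5, mul_inv_cancel_right]
    rw [← e1, Set.ncard_image_of_injective _ Subtype.val_injective]
    rfl
  rw [h2, h3] at h1
  exact h1

/-! ### the steps (5)-(9) -/

set_option linter.unusedSectionVars false

section main

variable [Finite G] {H N Q : Subgroup G} {D : Set G} {d u x5 x7 : G}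

theorem HSide.sq (hh : HSide H N D) {a : G} (ha : a ∈ D) : a * a = 1 := by
  rw [← pow_two, ← hh.inv a ha, pow_orderOf_eq_one]

theorem HSide.ne_one (hh : HSide H N D) {a : G} (ha : a ∈ D) : a ≠ 1 := by
  rintro rfl
  have := hh.inv 1 ha
  rw [orderOf_one] at this
  norm_num at this

theorem HSide.inv_eq (hh : HSide H N D) {a : G} (ha : a ∈ D) : a⁻¹ = a :=
  inv_eq_of_mul_eq_one_left (hh.sq ha)

theorem mem_M {y : G} : y ∈ H ⊓ cj u H ↔ y ∈ H ∧ u⁻¹ * y * u ∈ H := by
  rw [Subgroup.mem_inf, mem_cj]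

variable (hh : HSide H N D) (hg : GSide H N Q D d u x5 x7)

include hh hg

theorem dM : d ∈ H ⊓ cj u H := by
  have h1 : d ∈ H := hh.le (hh.sub d hg.dD)
  refine mem_M.2 ⟨h1, ?_⟩
  have h2 : u⁻¹ * d * u = d := by
    rw [mul_assoc, ← hg.cen u hg.uQ, ← mul_assoc, inv_mul_cancel, one_mul]
  rw [h2]
  exact h1

theorem xM {x : G} (hx : x ∈ N) (hxu : x * u = u * x) : x ∈ H ⊓ cj u H := by
  refine mem_M.2 ⟨hh.le hx, ?_⟩
  have h2 : u⁻¹ * x * u = x := by
    rw [mul_assoc, hxu, ← mul_assoc, inv_mul_cancel, one_mul]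
  rw [h2]
  exact hh.le hx

/-- (5) -/
theorem step5 {e : G} (he : e ∈ D) (heM : e ∈ H ⊓ cj u H) (hed : e * d = d * e) : e = d := by
  by_contra hne
  obtain ⟨h1, h2⟩ := mem_M.1 heM
  have hee := hh.inv_eq he
  have h3 : e * (u⁻¹ * e * u) ∈ H := mul_mem h1 h2
  have h4 : e * (u⁻¹ * e * u) ∈ Q := by
    have h5 := hg.nrm e he hed _ (inv_mem hg.uQ)
    rw [hee] at h5
    have h6 := mul_mem h5 hg.uQ
    have h7 : e * u⁻¹ * e * u = e * (u⁻¹ * e * u) := by group
    rwa [h7] at h6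
  obtain ⟨h5, h6⟩ := hg.no e he hed hne
  rcases hg.inf _ h4 h3 with h7 | h7
  · apply h5
    have h8 : u⁻¹ * e * u = e⁻¹ := eq_inv_of_mul_eq_one_right h7
    rw [h8, hee]
  · apply h6
    have h8 : u⁻¹ * e * u = e⁻¹ * d := by rw [← h7]; group
    rw [h8, hee]

/-- distinct elements of `d^M` do not commute -/
theorem E0_comm {y z : G} (hy : y ∈ E0 (H ⊓ cj u H) d) (hz : z ∈ E0 (H ⊓ cj u H) d) (hyz : y * z = z * y) : z = y := by
  obtain ⟨g, hgM, rfl⟩ := hy
  obtain ⟨k, hkM, rfl⟩ := hz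
  have h1 : (g⁻¹ * k) * d * (g⁻¹ * k)⁻¹ ∈ D := hh.conj _ (mul_mem (inv_mem (mem_M.1 hgM).1) (mem_M.1 hkM).1) _ hg.dD
  have hM : g⁻¹ * k ∈ H ⊓ cj u H := mul_mem (inv_mem hgM) hkM
  have h2 : (g⁻¹ * k) * d * (g⁻¹ * k)⁻¹ ∈ H ⊓ cj u H := mul_mem (mul_mem hM (dM hh hg)) (inv_mem hM)
  have h3 : (g⁻¹ * k) * d * (g⁻¹ * k)⁻¹ * d = d * ((g⁻¹ * k) * d * (g⁻¹ * k)⁻¹) := by
    have h4 : (g⁻¹ * k) * d * (g⁻¹ * k)⁻¹ * d = g⁻¹ * (k * d * k⁻¹ * (g * d * g⁻¹)) * g := by group
    have h5 : d * ((g⁻¹ * k) * d * (g⁻¹ * k)⁻¹) = g⁻¹ * (g * d * g⁻¹ * (k * d * k⁻¹)) * g := by group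
    rw [h4, h5, hyz]
  have h6 := step5 hh hg h1 h2 h3
  have h7 : k * d * k⁻¹ = g * ((g⁻¹ * k) * d * (g⁻¹ * k)⁻¹) * g⁻¹ := by group
  rw [h7, h6]

theorem E0_D {y : G} (hy : y ∈ E0 (H ⊓ cj u H) d) : y ∈ D := by
  obtain ⟨g, hgM, rfl⟩ := hy
  exact hh.conj _ (mem_M.1 hgM).1 _ hg.dD

theorem E0_M {y : G} (hy : y ∈ E0 (H ⊓ cj u H) d) : y ∈ H ⊓ cj u H := by
  obtain ⟨g, hgM, rfl⟩ := hy
  exact mul_mem (mul_mem hgM (dM hh hg)) (inv_mem hgM)

/-- (6) -/
theorem step6 (hEP : EP H) : ∃ g ∈ H ⊓ cj u H, g * d ≠ d * g := by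
  by_contra hcon
  push Not at hcon
  let L : Subgroup G := H ⊓ centralizer {d}
  have hL : ∀ x, x ∈ L ↔ x ∈ H ∧ x * d = d * x := by
    intro x
    show x ∈ H ⊓ centralizer {d} ↔ _
    rw [mem_inf, mem_centralizer_iff]
    constructor
    · rintro ⟨h1, h2⟩
      exact ⟨h1, (h2 d rfl).symm⟩
    · rintro ⟨h1, h2⟩
      refine ⟨h1, ?_⟩
      rintro _ rfl
      exact h2.symm
  rcases hEP.two u hg.uH L (fun x hx => (hL x).2 ⟨(mem_inf.1 hx).1, hcon x hx⟩) inf_le_left with h1 | h1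
  · obtain ⟨b, hb, hne, hbd⟩ := hh.comm d hg.dD
    apply hne
    apply step5 hh hg hb _ hbd
    rw [← h1, hL]
    exact ⟨hh.le (hh.sub b hb), hbd⟩
  · obtain ⟨b, hb, hne, -⟩ := hh.seven d hg.dD x7 hg.m7 hg.o7 hg.d7
    have h2 : b ∈ L := by rw [h1]; exact hh.le (hh.sub b hb)
    exact hne ((hL b).1 h2).2.symm

/-- (8) `x7` fixes only `d` in `d^M` -/
theorem step8 {e : G} (he : e ∈ E0 (H ⊓ cj u H) d) (hx : x7 * e = e * x7) : e = d := by
  have hdd := hh.sq hg.dD
  obtain ⟨b, hb, hdb, hxb, hall⟩ := hh.seven d hg.dD x7 hg.m7 hg.o7 hg.d7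
  -- `b ∉ M`
  have hbM : b ∉ H ⊓ cj u H := by
    intro hbM
    obtain ⟨h1, h2⟩ := mem_M.1 hbM
    have hbb := hh.sq hb
    set y := u⁻¹ * b * u with hy
    have hud : u * d = d * u := hg.cen u hg.uQ
    have hud' : u⁻¹ * d * u = d := by rw [mul_assoc, ← hud, ← mul_assoc, inv_mul_cancel, one_mul]
    -- `d * y` has order 3
    have h3 : (d * y) ^ 3 = 1 := by
      have h4 : d * y = u⁻¹ * (d * b) * u := by
        calc d * y = (u⁻¹ * d * u) * (u⁻¹ * b * u) := by rw [hud']
          _ = u⁻¹ * (d * b) * u := by group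
      have h5 : (d * b) ^ 3 = 1 := by
        rcases hh.tri d hg.dD b hb with h6 | h6
        · exact absurd h6 hdb
        · exact h6
      have h6 : (u⁻¹ * (d * b) * u) ^ 3 = u⁻¹ * (d * b) ^ 3 * u := by
        rw [pow_succ, pow_two, pow_succ, pow_two]
        group
      rw [h4, h6, h5]
      group
    have hdH : d ∈ H := hh.le (hh.sub d hg.dD)
    have h4 : y ∈ N := by
      have h5 : d * y ∈ N := hh.cube _ (mul_mem hdH h2) h3
      have h6 := mul_mem (hh.sub d hg.dD) h5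
      rwa [← mul_assoc, hdd, one_mul] at h6
    have h5 : orderOf y = 2 := by
      have h6 : orderOf y = orderOf b := by
        have h7 : y = MulAut.conj u⁻¹ b := by rw [MulAut.conj_apply, inv_inv]
        rw [h7]
        exact MulEquiv.orderOf_eq _ b
      rw [h6, hh.inv b hb]
    have h6 : x7 * y = y * x7 := by
      have h7 := hg.u7
      have h8 : x7 * u⁻¹ = u⁻¹ * x7 := by
        rw [eq_inv_mul_iff_mul_eq, ← mul_assoc, ← h7, mul_inv_cancel_right]
      calc x7 * (u⁻¹ * b * u) = (x7 * u⁻¹) * b * u := by group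
        _ = u⁻¹ * (x7 * b) * u := by rw [h8]; group
        _ = u⁻¹ * b * (x7 * u) := by rw [hxb]; group
        _ = (u⁻¹ * b * u) * x7 := by rw [h7]; group
    have hbd : b * d ≠ d * b := fun e => hdb e.symm
    have hu1 : u ≠ 1 := fun e => hg.uH (e ▸ one_mem _)
    rcases hall y h4 h5 h6 with h7 | h7 | h7
    · -- `y = d`
      apply hdb
      have h8 : b = u * d * u⁻¹ := by rw [← h7, hy]; group
      have h9 : b = d := by rw [h8, hud, mul_inv_cancel_right]
      rw [h9]
    · -- `y = b`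
      apply hu1
      apply hg.opp b hb hbd u hg.uQ
      have h8 : u⁻¹ * b * u = b := by rw [← hy]; exact h7
      calc u * b = u * (u⁻¹ * b * u) := by rw [h8]
        _ = b * u := by group
    · -- `y = d b d`
      have h8 : u * d = 1 := by
        apply hg.opp b hb hbd (u * d) (mul_mem hg.uQ hg.dQ)
        have h9 : u⁻¹ * b * u = d * b * d := by rw [← hy]; exact h7
        have h10 : d * (u⁻¹ * b * u) * d = b := by
          rw [h9]
          calc d * (d * b * d) * d = (d * d) * b * (d * d) := by group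
            _ = b := by rw [hdd]; group
        have hdi : d⁻¹ = d := hh.inv_eq hg.dD
        calc u * d * b = u * d * (d * (u⁻¹ * b * u) * d) := by rw [h10]
          _ = u * (d * d) * u⁻¹ * b * (u * d) := by group
          _ = b * (u * d) := by rw [hdd]; group
      apply hg.uH
      have h9 : u = d⁻¹ := eq_inv_of_mul_eq_one_left h8
      rw [h9]
      exact inv_mem hdH
  have heM := E0_M hh hg he
  have hdM := dM hh hg
  rcases hall e (hh.sub e (E0_D hh hg he)) (hh.inv e (E0_D hh hg he)) hx with h1 | h1 | h1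
  · exact h1
  · exact absurd (h1 ▸ heM) hbM
  · exfalso
    apply hbM
    have h2 : b = d * e * d := by
      rw [h1]
      calc b = (d * d) * b * (d * d) := by rw [hdd]; group
        _ = d * (d * b * d) * d := by group
    rw [h2]
    exact mul_mem (mul_mem hdM heM) hdM

/-- the elements of order 7: `|d^M| ≡ 1 mod 7` -/
theorem mod7 : (E0 (H ⊓ cj u H) d).ncard ≡ 1 [MOD 7] := by
  have h1 := E0_modEq (M := H ⊓ cj u H) (d := d) (xM hh hg hg.m7 hg.u7) (by norm_num : Nat.Prime 7) hg.o7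
  have h2 : {e | e ∈ E0 (H ⊓ cj u H) d ∧ x7 * e = e * x7} = {d} := by
    ext e
    constructor
    · rintro ⟨h3, h4⟩
      exact step8 hh hg h3 h4
    · rintro rfl
      exact ⟨⟨1, one_mem _, by group⟩, hg.d7⟩
  rw [h2, Set.ncard_singleton] at h1
  exact h1

/-- (9) the elements of order 5: `|d^M| ≡ 1` or `3 mod 5` -/
theorem mod5 : (E0 (H ⊓ cj u H) d).ncard ≡ 1 [MOD 5] ∨ (E0 (H ⊓ cj u H) d).ncard ≡ 3 [MOD 5] := by
  classical
  have h1 := E0_modEq (M := H ⊓ cj u H) (d := d) (xM hh hg hg.m5 hg.u5) (by norm_num : Nat.Prime 5) hg.o5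
  have hd : d ∈ E0 (H ⊓ cj u H) d := ⟨1, one_mem _, by group⟩
  by_cases hone : ∀ e ∈ E0 (H ⊓ cj u H) d, x5 * e = e * x5 → e = d
  · left
    have h2 : {e | e ∈ E0 (H ⊓ cj u H) d ∧ x5 * e = e * x5} = {d} := by
      ext e
      constructor
      · rintro ⟨h3, h4⟩
        exact hone e h3 h4
      · rintro rfl
        exact ⟨hd, hg.d5⟩
    rw [h2, Set.ncard_singleton] at h1
    exact h1
  · right
    push Not at hone
    obtain ⟨t, ht, hxt, htd⟩ := hone
    have hdt : d * t ≠ t * d := fun e => htd (E0_comm hh hg hd ht e)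
    have hdD := hg.dD
    have htD := E0_D hh hg ht
    have hdd := hh.sq hdD
    have htt := hh.sq htD
    have hw : d * t * d ∈ E0 (H ⊓ cj u H) d := by
      have h3 := E0_conj (dM hh hg) ht
      rwa [hh.inv_eq hdD] at h3
    have hxw : x5 * (d * t * d) = d * t * d * x5 := by
      calc x5 * (d * t * d) = (x5 * d) * t * d := by group
        _ = d * (x5 * t) * d := by rw [hg.d5]; group
        _ = d * t * (x5 * d) := by rw [hxt]; group
        _ = d * t * d * x5 := by rw [hg.d5]; group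
    have h2 : {e | e ∈ E0 (H ⊓ cj u H) d ∧ x5 * e = e * x5} = {d, t, d * t * d} := by
      ext e
      constructor
      · rintro ⟨h3, h4⟩
        by_contra hcon
        rw [Set.mem_insert_iff, Set.mem_insert_iff, Set.mem_singleton_iff] at hcon
        push Not at hcon
        obtain ⟨c1, c2, c3⟩ := hcon
        rcases hh.five x5 hg.m5 hg.o5 d hdD t htD e (E0_D hh hg h3) hg.d5 hxt h4 hdt c1 c2 c3 with h5 | h5 | h5
        · exact c1 (E0_comm hh hg hd h3 h5.symm)
        · exact c2 (E0_comm hh hg ht h3 h5.symm)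
        · exact c3 (E0_comm hh hg hw h3 h5.symm)
      · rintro (rfl | rfl | rfl)
        · exact ⟨hd, hg.d5⟩
        · exact ⟨ht, hxt⟩
        · exact ⟨hw, hxw⟩
    have h3 : ({d, t, d * t * d} : Set G).ncard = 3 := by
      rw [Set.ncard_eq_three]
      refine ⟨d, t, d * t * d, htd.symm, ?_, ?_, rfl⟩
      · intro e
        apply htd
        have e1 : t * d = 1 := by
          calc t * d = d⁻¹ * (d * t * d) := by group
            _ = d⁻¹ * d := by rw [← e]
            _ = 1 := inv_mul_cancel d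
        exact (eq_inv_of_mul_eq_one_left e1).trans (hh.inv_eq hdD)
      · intro e
        apply hdt
        calc d * t = d * t * (d * d) := by rw [hdd, mul_one]
          _ = d * t * d * d := by group
          _ = t * d := by rw [← e]
    rw [h2, h3] at h1
    exact h1

/-- (7) Glauberman's `Z*`: `|d^M|` is a power of 3 -/
theorem step7 : ∃ a : ℕ, (E0 (H ⊓ cj u H) d).ncard = 3 ^ a := by
  classical
  have hdM := dM hh hg
  have hdD := hg.dD
  have hdd := hh.sq hdD
  have hdi := hh.inv_eq hdD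
  set M : Subgroup G := H ⊓ cj u H with hM
  let v : M := ⟨d, hdM⟩
  have hvv : v * v = 1 := Subtype.ext hdd
  have hvi : v⁻¹ = v := inv_eq_of_mul_eq_one_left hvv
  -- products of two elements of `d^M`
  have key : ∀ y ∈ E0 M d, (d * y) ^ 3 = 1 := by
    intro y hy
    have hyD := E0_D hh hg hy
    rcases hh.tri d hdD y hyD with h1 | h1
    · have h2 : y = d := E0_comm hh hg ⟨1, one_mem _, by group⟩ hy h1
      rw [h2, hdd, one_pow]
    · exact h1
  have hiso : Cfsg.Agent.Involutions.ZStar.Iso v := by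
    refine ⟨hvv, fun g => ?_⟩
    have h1 : (v * (g * v * g⁻¹)) ^ 3 = 1 := by
      apply Subtype.ext
      exact key _ ⟨g, g.2, rfl⟩
    have h2 : orderOf (v * (g * v * g⁻¹)) ∣ 3 := orderOf_dvd_of_pow_eq_one h1
    rcases (Nat.dvd_prime Nat.prime_three).1 h2 with h3 | h3
    · rw [h3]; exact odd_one
    · rw [h3]; decide
  have hcom := Cfsg.Agent.S0215.iso_commutator v hiso
  set O : Subgroup M := Cfsg.pPrimeCore 2 M with hO
  have hOn : O.Normal := Cfsg.Agent.Lib.Cores.pPrimeCore_normal 2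
  have hOodd : Odd (Nat.card O) := by
    have h1 : (Nat.card O).Coprime 2 := Cfsg.Agent.Lib.Cores.pPrimeCore_coprime 2
    exact Nat.coprime_two_right.1 h1
  let φ : MulAut O := MulAut.conjNormal v
  have hφ : ∀ x : O, ((φ x : O) : M) = v * x * v⁻¹ := fun x => MulAut.conjNormal_apply v x
  have h2φ : φ * φ = 1 := by
    show MulAut.conjNormal v * MulAut.conjNormal v = 1
    rw [← map_mul, hvv, map_one]
  -- elements inverted by `d`
  have h3φ : ∀ x : O, φ x = x⁻¹ → x ^ 3 = 1 := by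
    intro x hx
    obtain ⟨m, hm⟩ := hOodd
    have hxn : x ^ (2 * m + 1) = 1 := by rw [← hm, pow_card_eq_one']
    -- `y ^ 2 = x`
    set y : O := x ^ (m + 1) with hy
    have hyx : y ^ 2 = x := by
      rw [hy, ← pow_mul]
      have : (m + 1) * 2 = (2 * m + 1) + 1 := by ring
      rw [this, pow_succ, hxn, one_mul]
    have hφy : φ y = y⁻¹ := by rw [hy, map_pow, hx, inv_pow]
    have h1 : ((v * ((y : M) * v * (y : M)⁻¹) : M)) = (x : M)⁻¹ := by
      have h4 : v * (y : M) * v⁻¹ = (y : M)⁻¹ := by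
        rw [← hφ, hφy]
        rfl
      have h5 : v * ((y : M) * v * (y : M)⁻¹) = (v * (y : M) * v⁻¹) * (v * v) * (y : M)⁻¹ := by group
      have h6 : (x : M) = (y : M) ^ 2 := by
        rw [← hyx]
        rfl
      rw [h5, hvv, h4, h6]
      group
    have h4 : ((v * ((y : M) * v * (y : M)⁻¹) : M)) ^ 3 = 1 := by
      apply Subtype.ext
      exact key _ ⟨(y : M), (y : M).2, rfl⟩
    rw [h1] at h4
    apply Subtype.ext
    show (x : M) ^ 3 = 1
    rw [inv_pow, inv_eq_one] at h4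
    exact h4
  obtain ⟨a, ha⟩ := index_fixG φ h2φ hOodd h3φ
  refine ⟨a, ?_⟩
  rw [← ha]
  -- the orbit
  let f : O → G := fun n => (n : M) * d * ((n : M) : G)⁻¹
  have hf : ∀ n n' : O, f n = f n' ↔ n⁻¹ * n' ∈ fixG φ := by
    intro n n'
    rw [mem_fixG]
    have h1 : φ (n⁻¹ * n') = n⁻¹ * n' ↔ d * (((n : M) : G)⁻¹ * ((n' : M) : G)) = ((n : M) : G)⁻¹ * ((n' : M) : G) * d := by
      rw [Subtype.ext_iff, hφ, mul_inv_eq_iff_eq_mul, Subtype.ext_iff]
      rfl
    rw [h1]
    show ((n : M) : G) * d * ((n : M) : G)⁻¹ = ((n' : M) : G) * d * ((n' : M) : G)⁻¹ ↔ _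
    generalize ((n : M) : G) = a
    generalize ((n' : M) : G) = b
    constructor
    · intro h
      calc d * (a⁻¹ * b) = a⁻¹ * (a * d * a⁻¹) * b := by group
        _ = a⁻¹ * (b * d * b⁻¹) * b := by rw [h]
        _ = a⁻¹ * b * d := by group
    · intro h
      calc a * d * a⁻¹ = a * (d * (a⁻¹ * b)) * b⁻¹ := by group
        _ = a * (a⁻¹ * b * d) * b⁻¹ := by rw [h]
        _ = b * d * b⁻¹ := by group
  have hrange : Set.range f = E0 M d := by
    ext y
    constructor
    · rintro ⟨n, rfl⟩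
      exact ⟨(n : M), (n : M).2, rfl⟩
    · intro hy
      have h3 := key y hy
      have hyD := E0_D hh hg hy
      have hyi := hh.inv_eq hyD
      have hyy := hh.sq hyD
      obtain ⟨g, hgM, hgy⟩ := hy
      have h1 := hcom ⟨g, hgM⟩
      refine ⟨⟨_, h1⟩, ?_⟩
      have h4 : ((v * (⟨g, hgM⟩ : M) * v⁻¹ * (⟨g, hgM⟩ : M)⁻¹ : M) : G) = d * y := by
        show d * g * d⁻¹ * g⁻¹ = d * y
        have h5 : y = g * d⁻¹ * g⁻¹ := by rw [hdi, hgy]
        rw [h5]
        group
      show ((v * (⟨g, hgM⟩ : M) * v⁻¹ * (⟨g, hgM⟩ : M)⁻¹ : M) : G) * d *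
        ((v * (⟨g, hgM⟩ : M) * v⁻¹ * (⟨g, hgM⟩ : M)⁻¹ : M) : G)⁻¹ = y
      rw [h4, mul_inv_rev, hdi, hyi]
      -- `d y d y d = y`
      have h5 : (d * y * d * (y * d)) * y = 1 := by
        rw [← h3, pow_succ, pow_two]
        group
      have h6 := eq_inv_of_mul_eq_one_left h5
      rw [h6, hyi]
  rw [← hrange]
  have hcard : Nat.card (O ⧸ fixG φ) = Nat.card (Set.range f) := by
    apply Nat.card_congr
    refine Equiv.ofBijective (Quotient.lift (fun n => (⟨f n, n, rfl⟩ : Set.range f)) ?_) ⟨?_, ?_⟩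
    · intro n n' h
      apply Subtype.ext
      exact (hf n n').2 (QuotientGroup.leftRel_apply.1 h)
    · intro a b
      induction a using QuotientGroup.induction_on with
      | H a =>
        induction b using QuotientGroup.induction_on with
        | H b =>
          intro h
          rw [QuotientGroup.eq]
          exact (hf a b).1 (congrArg Subtype.val h)
    · rintro ⟨_, n, rfl⟩
      exact ⟨(n : O ⧸ fixG φ), rfl⟩
  rw [Subgroup.index, hcard]
  rfl

/-- **The contradiction.** -/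
theorem false_of (hEP : EP H) : False := by
  obtain ⟨a, ha⟩ := step7 hh hg
  have h7 := mod7 hh hg
  have h5 := mod5 hh hg
  obtain ⟨g, hgM, hgd⟩ := step6 hh hg hEP
  have h1 : 1 < (E0 (H ⊓ cj u H) d).ncard := by
    rw [Set.one_lt_ncard_iff]
    refine ⟨d, g * d * g⁻¹, ⟨1, one_mem _, by group⟩, ⟨g, hgM, rfl⟩, ?_⟩
    intro e
    apply hgd
    rw [← mul_inv_eq_iff_eq_mul]
    exact e.symm
  have h2 : (E0 (H ⊓ cj u H) d).ncard < 3 ^ 12 :=
    lt_of_le_of_lt (Set.ncard_le_ncard (fun y hy => E0_D hh hg hy) (Set.toFinite _)) hh.card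
  rw [ha] at h1 h2 h5 h7
  have h3 : a < 12 := (Nat.pow_lt_pow_iff_right (by norm_num)).1 h2
  unfold Nat.ModEq at h5 h7
  interval_cases a <;> omega

end main

end Cfsg.Agent.H775.EPF
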