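import Cfsg.Agent.H775.EPF.Defs2
import Cfsg.Agent.H775.EPF.Fi22Abs
import Cfsg.Agent.H203.EPX.Defs

/-!
# S5745, row (2E6(2), Fi22): from the structure `GSide r Q u` of helper203 and `HSide`, `HSide2` to the contradiction
(helper775; paper proof of helper918)
-/

set_option autoImplicit false

namespace Cfsg.Agent.H775.EPF

open Subgroup Cfsg.Agent.H284
open scoped commutatorElement

variable {G : Type*} [Group G]

theorem mem_cen {a x : G} : x ∈ centralizer ({a} : Set G) ↔ x * a = a * x := by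
  rw [mem_centralizer_iff]
  constructor
  · intro h
    exact (h a rfl).symm
  · rintro h _ rfl
    exact h.symm

theorem mem_cen_conj {a x g : G} : x ∈ centralizer ({g * a * g⁻¹} : Set G) ↔ g⁻¹ * x * g ∈ centralizer ({a} : Set G) := by
  rw [mem_cen, mem_cen]
  constructor
  · intro h
    calc g⁻¹ * x * g * a = g⁻¹ * (x * (g * a * g⁻¹)) * g := by group
      _ = g⁻¹ * ((g * a * g⁻¹) * x) * g := by rw [h]
      _ = a * (g⁻¹ * x * g) := by group
  · intro h
    calc x * (g * a * g⁻¹) = g * (g⁻¹ * x * g * a) * g⁻¹ := by group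
      _ = g * (a * (g⁻¹ * x * g)) * g⁻¹ := by rw [h]
      _ = g * a * g⁻¹ * x := by group

theorem mem_zp {a x : G} (ha : a * a = 1) : x ∈ zpowers a ↔ x = 1 ∨ x = a := by
  constructor
  · rintro ⟨k, rfl⟩
    show a ^ k = 1 ∨ a ^ k = a
    have h2 : a ^ (2 : ℤ) = 1 := by
      rw [zpow_two, ha]
    rcases Int.even_or_odd' k with ⟨m, rfl | rfl⟩
    · left
      rw [zpow_mul, h2, one_zpow]
    · right
      rw [zpow_add, zpow_mul, h2, one_zpow, zpow_one, one_mul]
  · rintro (rfl | rfl)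
    · exact one_mem _
    · exact mem_zpowers _

theorem mem_zp_conj {a x g : G} : x ∈ zpowers (g * a * g⁻¹) ↔ g⁻¹ * x * g ∈ zpowers a := by
  constructor
  · rintro ⟨k, rfl⟩
    refine ⟨k, ?_⟩
    show a ^ k = g⁻¹ * (g * a * g⁻¹) ^ k * g
    rw [conj_zpow]
    group
  · rintro ⟨k, hk⟩
    refine ⟨k, ?_⟩
    show (g * a * g⁻¹) ^ k = x
    have h1 : a ^ k = g⁻¹ * x * g := hk
    rw [conj_zpow, h1]
    group

theorem conj_comm (g v w : G) : g⁻¹ * ⁅v, w⁆ * g = ⁅g⁻¹ * v * g, g⁻¹ * w * g⁆ := by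
  rw [commutatorElement_def, commutatorElement_def]
  group

/-- the structure for a conjugate involution -/
theorem gside_conj {r u : G} {Q : Subgroup G} (h : H203.EPX.GSide r Q u) (g : G) :
    H203.EPX.GSide (g * r * g⁻¹) (cj g Q) (g * u * g⁻¹) where
  rr := by
    calc g * r * g⁻¹ * (g * r * g⁻¹) = g * (r * r) * g⁻¹ := by group
      _ = 1 := by rw [h.rr]; group
  r1 := by
    intro e
    apply h.r1
    calc r = g⁻¹ * (g * r * g⁻¹) * g := by group
      _ = 1 := by rw [e]; group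
  rQ := conj_mem_cj h.rQ
  le := by
    intro x hx
    rw [mem_cen_conj]
    exact h.le (mem_cj.1 hx)
  nor := by
    intro x hx v hv
    rw [mem_cen_conj] at hx
    rw [mem_cj] at hv ⊢
    have h1 := h.nor _ hx _ hv
    have e : g⁻¹ * (x * v * x⁻¹) * g = g⁻¹ * x * g * (g⁻¹ * v * g) * (g⁻¹ * x * g)⁻¹ := by group
    rw [e]
    exact h1
  two := h.two.map _
  com := by
    intro v hv w hw
    rw [mem_cj] at hv hw
    rw [mem_zp_conj, conj_comm]
    exact h.com _ hv _ hw
  surj := by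
    intro v hv hvz
    rw [mem_cj] at hv
    rw [mem_zp_conj] at hvz
    obtain ⟨w, hw, he⟩ := h.surj _ hv hvz
    refine ⟨g * w * g⁻¹, conj_mem_cj hw, ?_⟩
    have e := conj_comm g v (g * w * g⁻¹)
    have e1 : g⁻¹ * (g * w * g⁻¹) * g = w := by group
    rw [e1, he] at e
    calc ⁅v, g * w * g⁻¹⁆ = g * (g⁻¹ * ⁅v, g * w * g⁻¹⁆ * g) * g⁻¹ := by group
      _ = g * r * g⁻¹ := by rw [e]
  card := by
    have e : centralizer ({g * r * g⁻¹} : Set G) = cj g (centralizer ({r} : Set G)) := by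
      ext x
      rw [mem_cen_conj, mem_cj]
    rw [e, card_cj, card_cj, h.card]
  fix := by
    intro v hv hx
    rw [mem_cj] at hv
    rw [mem_zp_conj]
    apply h.fix _ hv
    intro x hxc
    have h1 := hx (g * x * g⁻¹) (by
      rw [mem_cen_conj]
      have e : g⁻¹ * (g * x * g⁻¹) * g = x := by group
      rwa [e])
    rw [mem_zp_conj, conj_comm] at h1
    have e : g⁻¹ * (g * x * g⁻¹) * g = x := by group
    rwa [e] at h1
  uQ := conj_mem_cj h.uQ
  u1 := by
    rw [mem_zp_conj]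
    have e : g⁻¹ * (g * u * g⁻¹) * g = u := by group
    rw [e]
    exact h.u1
  tr := by
    intro k hc hQ
    have e1 : k * (g * r * g⁻¹) * k⁻¹ = g * ((g⁻¹ * k * g) * r * (g⁻¹ * k * g)⁻¹) * g⁻¹ := by group
    have h1 := h.tr (g⁻¹ * k * g) (by
      calc (g⁻¹ * k * g) * r * (g⁻¹ * k * g)⁻¹ * r = g⁻¹ * (k * (g * r * g⁻¹) * k⁻¹ * (g * r * g⁻¹)) * g := by group
        _ = g⁻¹ * (g * r * g⁻¹ * (k * (g * r * g⁻¹) * k⁻¹)) * g := by rw [hc]
        _ = r * ((g⁻¹ * k * g) * r * (g⁻¹ * k * g)⁻¹) := by group) (by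
      intro h2
      apply hQ
      rw [e1]
      exact conj_mem_cj h2)
    intro h2
    apply h1
    rw [mem_zp_conj, conj_comm] at h2
    have e2 : g⁻¹ * (k * (g * r * g⁻¹) * k⁻¹) * g = (g⁻¹ * k * g) * r * (g⁻¹ * k * g)⁻¹ := by group
    have e3 : g⁻¹ * (g * u * g⁻¹) * g = u := by group
    rwa [e2, e3] at h2
  seven := by
    obtain ⟨x, h1, h2, h3⟩ := h.seven
    refine ⟨g * x * g⁻¹, ?_, ?_, ?_⟩
    · rw [mem_cen_conj]
      have e : g⁻¹ * (g * x * g⁻¹) * g = x := by group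
      rwa [e]
    · rw [← h2]
      exact MulEquiv.orderOf_eq (MulAut.conj g) x
    · calc g * x * g⁻¹ * (g * u * g⁻¹) = g * (x * u) * g⁻¹ := by group
        _ = g * u * g⁻¹ * (g * x * g⁻¹) := by rw [h3]; group
  five := by
    obtain ⟨x, h1, h2, h3⟩ := h.five
    refine ⟨g * x * g⁻¹, ?_, ?_, ?_⟩
    · rw [mem_cen_conj]
      have e : g⁻¹ * (g * x * g⁻¹) * g = x := by group
      rwa [e]
    · rw [← h2]
      exact MulEquiv.orderOf_eq (MulAut.conj g) x
    · calc g * x * g⁻¹ * (g * u * g⁻¹) = g * (x * u) * g⁻¹ := by group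
        _ = g * u * g⁻¹ * (g * x * g⁻¹) := by rw [h3]; group
  opp := by
    intro k ho v hv hc
    rw [mem_cj] at hv
    have h1 := h.opp (g⁻¹ * k * g) (by
      rw [← ho]
      have e : k * (g * r * g⁻¹) * k⁻¹ * (g * r * g⁻¹) =
          MulAut.conj g ((g⁻¹ * k * g) * r * (g⁻¹ * k * g)⁻¹ * r) := by
        rw [MulAut.conj_apply]
        group
      rw [e]
      exact (MulEquiv.orderOf_eq (MulAut.conj g) _).symm) (g⁻¹ * v * g) hv (by
      calc g⁻¹ * v * g * ((g⁻¹ * k * g) * r * (g⁻¹ * k * g)⁻¹) = g⁻¹ * (v * (k * (g * r * g⁻¹) * k⁻¹)) * g := by group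
        _ = g⁻¹ * ((k * (g * r * g⁻¹) * k⁻¹) * v) * g := by rw [hc]
        _ = (g⁻¹ * k * g) * r * (g⁻¹ * k * g)⁻¹ * (g⁻¹ * v * g) := by group)
    calc v = g * (g⁻¹ * v * g) * g⁻¹ := by group
      _ = 1 := by rw [h1]; group
  bt := by
    intro d hd h11
    obtain ⟨k, hk⟩ := h.bt d hd h11
    refine ⟨k * g⁻¹, ?_⟩
    have e : k * g⁻¹ * (g * r * g⁻¹) * (k * g⁻¹)⁻¹ = k * r * k⁻¹ := by group
    rw [e]
    exact hk

/-! ### the position of `C_N(d)` -/

section DR

variable [Finite G] {r u d : G} {Q C : Subgroup G}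

/-- `C = 2.U6(2)` inside `C_G(r)`: `C ∩ Q = {1, d}` and `C Q = C_G(r)` -/
theorem pos (GS : H203.EPX.GSide r Q u) (hCr : C ≤ centralizer {r}) (hcard : Nat.card C = 18393661440)
    (hq : ∀ J ≤ C, (∀ c ∈ C, ∀ j ∈ J, c * j * c⁻¹ ∈ J) → (∀ j ∈ J, j = 1 ∨ j = d) ∨ J = C) :
    (∀ x ∈ C, x ∈ Q → x = 1 ∨ x = d) ∧ d ∈ Q ∧ d ∈ C ∧ ∀ x ∈ centralizer ({r} : Set G), ∃ c ∈ C, ∃ v ∈ Q, x = c * v := by
  classical
  set P : Subgroup G := centralizer ({r} : Set G) with hP
  have hQP : Q ≤ P := GS.le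
  have hQn : (Q.subgroupOf P).Normal := by
    constructor
    intro n hn g
    exact GS.nor g g.2 n hn
  -- the homomorphism `C → P / Q`
  let ψ : C →* (P ⧸ Q.subgroupOf P) := (QuotientGroup.mk' (Q.subgroupOf P)).comp (Subgroup.inclusion hCr)
  have hψ : ∀ x : C, x ∈ ψ.ker ↔ (x : G) ∈ Q := by
    intro x
    rw [MonoidHom.mem_ker]
    show (QuotientGroup.mk' (Q.subgroupOf P)) (Subgroup.inclusion hCr x) = 1 ↔ _
    rw [QuotientGroup.mk'_apply, QuotientGroup.eq_one_iff, mem_subgroupOf]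
    rfl
  have hPQ : Nat.card (P ⧸ Q.subgroupOf P) = 9196830720 := by
    have h1 : Nat.card P = Nat.card (P ⧸ Q.subgroupOf P) * Nat.card (Q.subgroupOf P) := card_eq_card_quotient_mul_card_subgroup _
    have h2 : Nat.card (Q.subgroupOf P) = Nat.card Q := Nat.card_congr (subgroupOfEquivOfLe hQP).toEquiv
    have h3 := GS.card
    rw [h1, h2, mul_comm (Nat.card Q)] at h3
    exact Nat.eq_of_mul_eq_mul_right Nat.card_pos h3
  have hrk : Nat.card ψ.ker * Nat.card ψ.range = 18393661440 := by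
    rw [← hcard, ← Subgroup.index_ker, mul_comm, Subgroup.index_mul_card]
  have hrange : Nat.card ψ.range ∣ 9196830720 := by
    rw [← hPQ]
    exact Subgroup.card_subgroup_dvd_card _
  have hker2 : 2 ≤ Nat.card ψ.ker := by
    have h1 := Nat.le_of_dvd (by norm_num) hrange
    by_contra hcon
    have h2 : Nat.card ψ.ker ≤ 1 := by omega
    have h3 : Nat.card ψ.ker * Nat.card ψ.range ≤ 1 * 9196830720 := Nat.mul_le_mul h2 h1
    omega
  -- the kernel as a subgroup of `G`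
  have hJ : Nat.card (C ⊓ Q : Subgroup G) = Nat.card ψ.ker := by
    apply Nat.card_congr
    refine ⟨fun x => ⟨⟨x.1, (mem_inf.1 x.2).1⟩, (hψ _).2 (mem_inf.1 x.2).2⟩,
      fun x => ⟨x.1.1, mem_inf.2 ⟨x.1.2, (hψ _).1 x.2⟩⟩, fun _ => rfl, fun _ => rfl⟩
  rcases hq (C ⊓ Q) inf_le_left (by
    intro c hc j hj
    exact mem_inf.2 ⟨mul_mem (mul_mem hc (mem_inf.1 hj).1) (inv_mem hc), GS.nor c (hCr hc) j (mem_inf.1 hj).2⟩) with h1 | h1
  · -- `C ∩ Q = {1, d}`
    have hle : ((C ⊓ Q : Subgroup G) : Set G) ⊆ {1, d} := fun x hx => h1 x hx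
    have hc : Nat.card (C ⊓ Q : Subgroup G) = 2 := by
      apply le_antisymm
      · have h2 : ((C ⊓ Q : Subgroup G) : Set G).ncard ≤ ({1, d} : Set G).ncard := Set.ncard_le_ncard hle (Set.toFinite _)
        refine h2.trans ((Set.ncard_insert_le _ _).trans ?_)
        rw [Set.ncard_singleton]
      · rw [hJ]
        exact hker2
    have hd : d ∈ C ⊓ Q := by
      have h2 : Nontrivial (C ⊓ Q : Subgroup G) := by
        rw [← Finite.one_lt_card_iff_nontrivial, hc]
        norm_num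
      obtain ⟨x, hx⟩ := exists_ne (1 : (C ⊓ Q : Subgroup G))
      rcases h1 x x.2 with h3 | h3
      · exact absurd (Subtype.ext h3) hx
      · rw [← h3]
        exact x.2
    refine ⟨fun x hxC hxQ => h1 x (mem_inf.2 ⟨hxC, hxQ⟩), (mem_inf.1 hd).2, (mem_inf.1 hd).1, ?_⟩
    -- surjectivity
    have hr : Nat.card ψ.range = 9196830720 := by
      rw [← hJ, hc] at hrk
      omega
    have htop : ψ.range = ⊤ := by
      apply Subgroup.eq_top_of_card_eq
      rw [hr, hPQ]
    intro x hx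
    have h2 : (QuotientGroup.mk' (Q.subgroupOf P)) ⟨x, hx⟩ ∈ ψ.range := by rw [htop]; exact mem_top _
    obtain ⟨c, hc'⟩ := h2
    refine ⟨c, c.2, (c : G)⁻¹ * x, ?_, by group⟩
    have h3 : (Subgroup.inclusion hCr c)⁻¹ * ⟨x, hx⟩ ∈ Q.subgroupOf P := by
      rw [← QuotientGroup.eq]
      exact hc'
    exact h3
  · -- `C ≤ Q`: impossible
    exfalso
    have hCQ : C ≤ Q := by
      rw [← h1]
      exact inf_le_right
    have h2 : IsPGroup 2 C := GS.two.to_le hCQ
    obtain ⟨n, hn⟩ := IsPGroup.iff_card.1 h2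
    rw [hcard] at hn
    have h3 : 3 ∣ 2 ^ n := by
      rw [← hn]
      norm_num
    have h4 := Nat.Prime.dvd_of_dvd_pow Nat.prime_three h3
    omega

/-- `d = r` -/
theorem d_eq (GS : H203.EPX.GSide r Q u) (hCr : C ≤ centralizer {r}) (hCd : C ≤ centralizer {d}) (hd1 : d ≠ 1)
    (hcard : Nat.card C = 18393661440)
    (hq : ∀ J ≤ C, (∀ c ∈ C, ∀ j ∈ J, c * j * c⁻¹ ∈ J) → (∀ j ∈ J, j = 1 ∨ j = d) ∨ J = C) : d = r := by
  obtain ⟨-, hdQ, hdC, hsur⟩ := pos GS hCr hcard hq
  have h1 : d ∈ zpowers r := by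
    apply GS.fix d hdQ
    intro x hx
    obtain ⟨c, hc, v, hv, rfl⟩ := hsur x hx
    have h2 : ⁅v, d⁆ ∈ zpowers r := GS.com v hv d hdQ
    have h3 : c * d = d * c := mem_cen.1 (hCd hc)
    have h4 : ⁅c * v, d⁆ = c * ⁅v, d⁆ * c⁻¹ := by
      rw [commutatorElement_def, commutatorElement_def]
      calc c * v * d * (c * v)⁻¹ * d⁻¹ = c * v * d * v⁻¹ * (c⁻¹ * d⁻¹) := by group
        _ = c * v * d * v⁻¹ * (d⁻¹ * c⁻¹) := by rw [← mul_inv_rev, ← mul_inv_rev, h3]
        _ = c * (v * d * v⁻¹ * d⁻¹) * c⁻¹ := by group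
    rw [h4]
    have h5 : c * r = r * c := mem_cen.1 (hCr hc)
    rcases (mem_zp GS.rr).1 h2 with h6 | h6
    · rw [h6, mul_one, mul_inv_cancel]
      exact one_mem _
    · rw [h6, h5, mul_inv_cancel_right]
      exact mem_zpowers _
  rcases (mem_zp GS.rr).1 h1 with h2 | h2
  · exact absurd h2 hd1
  · exact h2

omit [Finite G] in
/-- lifting an element of order `p = 2 k + 1` of `C_G(r)` centralising `u` into `C` -/
theorem lift (GS : H203.EPX.GSide r Q u) (hCr : C ≤ centralizer {r})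
    (hint : ∀ x ∈ C, x ∈ Q → x = 1 ∨ x = r) (hsur : ∀ x ∈ centralizer ({r} : Set G), ∃ c ∈ C, ∃ v ∈ Q, x = c * v)
    {p : ℕ} (hp : p.Prime) (hp2 : p ≠ 2) {x : G} (hx : x ∈ centralizer ({r} : Set G)) (hxo : orderOf x = p)
    (hxu : x * u = u * x) : ∃ y ∈ C, orderOf y = p ∧ y * u = u * y := by
  classical
  obtain ⟨c, hc, v, hv, hxcv⟩ := hsur x hx
  set P : Subgroup G := centralizer ({r} : Set G) with hP
  have hQP : Q ≤ P := GS.le
  have hQn : (Q.subgroupOf P).Normal := by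
    constructor
    intro n hn g
    exact GS.nor g g.2 n hn
  have hcP : c ∈ P := hCr hc
  let π := QuotientGroup.mk' (Q.subgroupOf P)
  have hπ : ∀ (a : P), π a = 1 ↔ (a : G) ∈ Q := by
    intro a
    rw [QuotientGroup.mk'_apply, QuotientGroup.eq_one_iff, mem_subgroupOf]
  have hcx : π ⟨c, hcP⟩ = π ⟨x, hx⟩ := by
    rw [QuotientGroup.mk'_apply, QuotientGroup.mk'_apply, QuotientGroup.eq, mem_subgroupOf]
    show c⁻¹ * x ∈ Q
    rw [hxcv, inv_mul_cancel_left]
    exact hv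
  have hxp : x ^ p = 1 := by rw [← hxo, pow_orderOf_eq_one]
  have hcpQ : c ^ p ∈ Q := by
    have h1 : π (⟨c, hcP⟩ ^ p) = 1 := by
      rw [map_pow, hcx, ← map_pow]
      have h2 : (⟨x, hx⟩ : P) ^ p = 1 := Subtype.ext hxp
      rw [h2, map_one]
    exact (hπ _).1 h1
  have hcp2 : (c ^ p) ^ 2 = 1 := by
    rcases hint _ (pow_mem hc p) hcpQ with h1 | h1
    · rw [h1, one_pow]
    · rw [h1, pow_two, GS.rr]
  obtain ⟨k, hk⟩ : ∃ k, p + 1 = 2 * k := by
    rcases hp.eq_two_or_odd' with h | h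
    · exact absurd h hp2
    · obtain ⟨m, hm⟩ := h
      exact ⟨m + 1, by omega⟩
  have hyp : (c ^ (p + 1)) ^ p = 1 := by
    rw [← pow_mul, mul_comm, pow_mul, hk, pow_mul, hcp2, one_pow]
  have hxQ : x ∉ Q := by
    intro h
    obtain ⟨m, hm⟩ := GS.two ⟨x, h⟩
    have hm' : x ^ 2 ^ m = 1 := congrArg Subtype.val hm
    have h1 : p ∣ 2 ^ m := by
      rw [← hxo]
      exact orderOf_dvd_of_pow_eq_one hm'
    exact hp2 ((Nat.prime_dvd_prime_iff_eq hp Nat.prime_two).1 (hp.dvd_of_dvd_pow h1))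
  have hy1 : c ^ (p + 1) ≠ 1 := by
    intro h
    apply hxQ
    have h1 : π (⟨c, hcP⟩ ^ (p + 1)) = 1 := by
      have h2 : (⟨c, hcP⟩ : P) ^ (p + 1) = 1 := Subtype.ext h
      rw [h2, map_one]
    rw [map_pow, hcx, ← map_pow] at h1
    have h3 := (hπ _).1 h1
    have h4 : x ^ (p + 1) ∈ Q := h3
    rwa [pow_succ, hxp, one_mul] at h4
  refine ⟨c ^ (p + 1), pow_mem hc _, ?_, ?_⟩
  · have := Fact.mk hp
    exact orderOf_eq_prime hyp hy1
  · -- `c ^ 2` commutes with `u`
    have hxr : x * r = r * x := mem_cen.1 hx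
    have hcr : c * r = r * c := mem_cen.1 hcP
    have hz := GS.com v⁻¹ (inv_mem hv) u GS.uQ
    have hzc : c * ⁅v⁻¹, u⁆ = ⁅v⁻¹, u⁆ * c ∧ ⁅v⁻¹, u⁆ * ⁅v⁻¹, u⁆ = 1 ∧ x * ⁅v⁻¹, u⁆ = ⁅v⁻¹, u⁆ * x := by
      rcases (mem_zp GS.rr).1 hz with h1 | h1
      · rw [h1]
        simp
      · rw [h1]
        exact ⟨hcr, GS.rr, hxr⟩
    obtain ⟨hz1, hz2, hz3⟩ := hzc
    have hcv : c = x * v⁻¹ := by rw [hxcv]; group
    have hcu : c * u = ⁅v⁻¹, u⁆ * u * c := by
      have h1 : v⁻¹ * u = ⁅v⁻¹, u⁆ * u * v⁻¹ := by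
        rw [commutatorElement_def]
        group
      calc c * u = x * (v⁻¹ * u) := by rw [hcv]; group
        _ = (x * ⁅v⁻¹, u⁆) * u * v⁻¹ := by rw [h1]; group
        _ = ⁅v⁻¹, u⁆ * (x * u) * v⁻¹ := by rw [hz3]; group
        _ = ⁅v⁻¹, u⁆ * u * (x * v⁻¹) := by rw [hxu]; group
        _ = ⁅v⁻¹, u⁆ * u * c := by rw [← hcv]
    have hccu : Commute (c * c) u := by
      show c * c * u = u * (c * c)
      calc c * c * u = c * (c * u) := by group
        _ = (c * ⁅v⁻¹, u⁆) * u * c := by rw [hcu]; group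
        _ = ⁅v⁻¹, u⁆ * (c * u) * c := by rw [hz1]; group
        _ = (⁅v⁻¹, u⁆ * ⁅v⁻¹, u⁆) * u * c * c := by rw [hcu]; group
        _ = u * (c * c) := by rw [hz2]; group
    have h1 : c ^ (p + 1) = (c * c) ^ k := by rw [hk, pow_mul, pow_two]
    rw [h1]
    exact (hccu.pow_left k).eq

end DR

/-- **The row (2E6(2), Fi22).** -/
theorem kill [Finite G] {H N : Subgroup G} {D : Set G} {r u : G} {Q : Subgroup G} (GS : H203.EPX.GSide r Q u) (hEP : EP H)
    (hh : HSide H N D) (hx : HSide2 H N D) : False := by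
  classical
  obtain ⟨d, hd⟩ := hx.ne
  have hdd := hh.sq hd
  have hd1 := hh.ne_one hd
  set C : Subgroup G := N ⊓ centralizer {d} with hC
  have hcard : Nat.card C = 18393661440 := hx.cardC d hd
  have hCd : C ≤ centralizer {d} := inf_le_right
  -- Borel-Tits
  obtain ⟨g, hg⟩ := GS.bt d (hh.inv d hd) (by
    have h1 : Nat.card C ∣ Nat.card (centralizer ({d} : Set G)) := Subgroup.card_dvd_of_le hCd
    refine Dvd.dvd.trans ?_ h1
    rw [hcard]
    norm_num)
  have GS' := gside_conj GS g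
  have hdr : d = g * r * g⁻¹ := d_eq GS' (hCd.trans hg) hCd hd1 hcard (hx.quot d hd)
  obtain ⟨hint, hdQ, hdC, hsur⟩ := pos GS' (hCd.trans hg) hcard (hx.quot d hd)
  generalize g * u * g⁻¹ = u' at GS'
  generalize cj g Q = Q' at GS' hint hdQ hsur
  rw [← hdr] at GS' hsur
  have hzd : ∀ x : G, x ∈ zpowers d ↔ x = 1 ∨ x = d := fun x => mem_zp hdd
  -- `Q ∩ H = ⟨d⟩`
  have hinf : ∀ x ∈ Q', x ∈ H → x = 1 ∨ x = d := by
    intro v hv hvH
    rw [← hzd]
    apply GS'.fix v hv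
    intro x hxc
    obtain ⟨c, hc, w, hw, rfl⟩ := hsur x hxc
    have h1 : ⁅w, v⁆ ∈ zpowers d := GS'.com w hw v hv
    have hcN : c ∈ N := (mem_inf.1 hc).1
    have hcd : c * d = d * c := mem_cen.1 (mem_inf.1 hc).2
    have hvd : v * d = d * v := mem_cen.1 (GS'.le hv)
    have h2 : ⁅c, v⁆ ∈ zpowers d := by
      rw [hzd]
      apply hint
      · refine mem_inf.2 ⟨?_, ?_⟩
        · rw [commutatorElement_def]
          have h3 := hx.norm v hvH c⁻¹ (inv_mem hcN)
          have h4 := mul_mem hcN h3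
          have e : c * (v * c⁻¹ * v⁻¹) = c * v * c⁻¹ * v⁻¹ := by group
          rwa [e] at h4
        · rw [commutatorElement_def]
          exact mul_mem (mul_mem (mul_mem (mem_inf.1 hc).2 (GS'.le hv)) (inv_mem (mem_inf.1 hc).2)) (inv_mem (GS'.le hv))
      · rw [commutatorElement_def]
        exact mul_mem (GS'.nor c (mem_inf.1 hc).2 v hv) (inv_mem hv)
    have h3 : ⁅c * w, v⁆ = c * ⁅w, v⁆ * c⁻¹ * ⁅c, v⁆ := by
      rw [commutatorElement_def, commutatorElement_def, commutatorElement_def]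
      group
    rw [h3]
    apply mul_mem _ h2
    rcases (hzd _).1 h1 with h4 | h4
    · rw [h4, mul_one, mul_inv_cancel]
      exact one_mem _
    · rw [h4, hcd, mul_inv_cancel_right]
      exact mem_zpowers _
  -- elements of order 7 and 5
  obtain ⟨y7, k1, k2, k3⟩ := GS'.seven
  obtain ⟨x7, hx7C, hx7o, hx7u⟩ := lift GS' hCd hint hsur (by norm_num : Nat.Prime 7) (by norm_num) k1 k2 k3
  obtain ⟨y5, l1, l2, l3⟩ := GS'.five
  obtain ⟨x5, hx5C, hx5o, hx5u⟩ := lift GS' hCd hint hsur (by norm_num : Nat.Prime 5) (by norm_num) l1 l2 l3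
  refine false_of (H := H) (N := N) (Q := Q') (D := D) (d := d) (u := u') (x5 := x5) (x7 := x7) hh ?_ hEP
  exact
    { dD := hd
      dQ := hdQ
      uQ := GS'.uQ
      uH := fun h => GS'.u1 ((hzd _).2 (hinf _ GS'.uQ h))
      cen := fun x hx => mem_cen.1 (GS'.le hx)
      inf := hinf
      nrm := fun e _ hed x hx => GS'.nor e (mem_cen.2 hed) x hx
      no := by
        intro e he hed hne
        obtain ⟨k, hk⟩ := hx.cl d hd e he
        have heC : e ∈ C := mem_inf.2 ⟨hh.sub e he, mem_cen.2 hed⟩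
        have heQ : e ∉ Q' := by
          intro h
          rcases hint e heC h with h1 | h1
          · exact hh.ne_one he h1
          · exact hne h1
        have h1 := GS'.tr k (by rw [hk]; exact hed) (by rw [hk]; exact heQ)
        rw [hk] at h1
        have hud : u' * d = d * u' := mem_cen.1 (GS'.le GS'.uQ)
        constructor
        · intro h2
          apply h1
          have h3 : ⁅e, u'⁆ = 1 := by
            rw [commutatorElement_def]
            have h4 : e * u' = u' * e := by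
              calc e * u' = u' * (u'⁻¹ * e * u') := by group
                _ = u' * e := by rw [h2]
            rw [h4]
            group
          rw [h3]
          exact one_mem _
        · intro h2
          apply h1
          have h3 : ⁅e, u'⁆ = d := by
            rw [commutatorElement_def]
            have h4 : e * u' = d * u' * e := by
              calc e * u' = u' * (u'⁻¹ * e * u') := by group
                _ = u' * (e * d) := by rw [h2]
                _ = u' * (d * e) := by rw [hed]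
                _ = (u' * d) * e := by group
                _ = d * u' * e := by rw [hud]
            rw [h4]
            group
          rw [h3]
          exact mem_zpowers _
      m5 := (mem_inf.1 hx5C).1
      o5 := hx5o
      d5 := mem_cen.1 (mem_inf.1 hx5C).2
      u5 := hx5u
      m7 := (mem_inf.1 hx7C).1
      o7 := hx7o
      d7 := mem_cen.1 (mem_inf.1 hx7C).2
      u7 := hx7u
      opp := by
        intro e he hed v hv hve
        obtain ⟨k, hk⟩ := hx.cl d hd e he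
        apply GS'.opp k ?_ v hv (by rw [hk]; exact hve)
        rw [hk]
        rcases hh.tri e he d hd with h1 | h1
        · exact absurd h1 hed
        · have := Fact.mk Nat.prime_three
          apply orderOf_eq_prime h1
          intro h2
          apply hed
          have h3 : e = d⁻¹ := eq_inv_of_mul_eq_one_left h2
          rw [h3]
          group }

end Cfsg.Agent.H775.EPF
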