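import Cfsg.Agent.H775.EPF.Glue
import Cfsg.Agent.H153.FH.Side
import Cfsg.Agent.H209.EPX.Defs

/-!
# S5745, row (2E6(2), Fi22): the socle `Fi22` is impossible in a group with a structure `GSide` (helper775)
-/

set_option autoImplicit false

namespace Cfsg.Agent.H775.EPF

open Subgroup Cfsg.Agent.H284 Cfsg.Agent.H209.EPX

/-- **S5745**: no stabiliser with socle `Fi22` in a group with the structure `GSide` (`²E₆(2)`). -/
theorem kill_row {G : Type*} [Group G] [Finite G] {r u : G} {Q : Subgroup G} (GS : H203.EPX.GSide r Q u)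
    {H N : Subgroup G} {T : Type} [Group T] {e : N ≃* (Fin 1 → T)} (h : EPS H N e) (hT : Spor.IsoFi22 T) : False := by
  obtain ⟨e1⟩ := hT
  have e2 : N ≃* Cfsg.Spor.Fi22 := (e.trans (MulEquiv.funUnique (Fin 1) T)).trans e1
  refine kill GS h.ep (Cfsg.Agent.H153.FH.hSide e2 h.le h.nrm ?_) (Cfsg.Agent.H153.FH.hSide2 e2 h.nrm)
  intro c _ hc
  have h1 : c ∈ Subgroup.centralizer (N : Set G) := by
    rw [mem_centralizer_iff]
    intro n hn
    exact (hc n hn).symm
  rw [h.cent, mem_bot] at h1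
  exact h1

end Cfsg.Agent.H775.EPF
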