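import Cfsg.Agent.H775.EPF.Row
import Cfsg.Agent.H203.EPX.Gside
import Cfsg.Prelude.Def_Classification2

/-!
# S5745: the cell `(²E₆(2), Fi₂₂)` (helper775; G-side helper203, 622, 891, 406; H-side helper153; proof of helper918)
-/

set_option autoImplicit false

namespace Cfsg.Agent.H775.EPF

open Subgroup Cfsg.Agent.H284 Cfsg.Agent.H209.EPX

/-- **S5745, the cell `(²E₆(2), Fi₂₂)`.** -/
theorem te6_fi22 (K : Type) [Field K] [Fintype K] (hK : Fintype.card K = 4) (H N : Subgroup ↥(Lie.twistedE6 K 2))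
    (T : Type) [Group T] (e : N ≃* (Fin 1 → T)) (h : EPS H N e) (hT : Spor.IsoFi22 T) : False := by
  obtain ⟨r, Q, u, GS⟩ := H203.EPX.gside K hK
  have hfin : Finite ↥(Lie.twistedE6 K 2) := inferInstance
  exact kill_row GS h hT

end Cfsg.Agent.H775.EPF
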